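import Mathlib
import Cfsg.Agent.SL2.Basic
import Cfsg.Agent.SmallIso.PSLTwo

/-!
# `PSL₂(7) ≅ PSL₃(2)`

The action on the eight points of the projective line preserves an extended quadratic residue code
of dimension four; modulo the all-one word this is the natural module of `SL₃(2)`.
-/

namespace CfsgLib.SmallIso

open Matrix

/-- Coordinates of the eight points of the line over `ZMod 7`. -/
def pointSeven : Fin 8 → ZMod 7 × ZMod 7 :=
  ![(1, 0), (0, 1), (1, 1), (2, 1), (3, 1), (4, 1), (5, 1), (6, 1)]

/-- The index of the point through a nonzero vector. -/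
def indexSeven (v : ZMod 7 × ZMod 7) : Fin 8 :=
  if v.2 = 0 then 0 else ![1, 2, 3, 4, 5, 6, 7] (v.1 * (v.2 * v.2 * v.2 * v.2 * v.2))

/-- The image of a point under the inverse of a matrix of determinant one. -/
def invActSeven (M : Matrix (Fin 2) (Fin 2) (ZMod 7)) (x : Fin 8) : Fin 8 :=
  indexSeven (M 1 1 * (pointSeven x).1 - M 0 1 * (pointSeven x).2,
    -M 1 0 * (pointSeven x).1 + M 0 0 * (pointSeven x).2)

/-- Indicators of the three basis code words. -/
def wordSeven : Fin 3 → Fin 8 → ZMod 2 :=
  ![![0, 1, 0, 0, 1, 0, 1, 1], ![0, 0, 1, 0, 1, 1, 1, 0], ![0, 0, 0, 1, 0, 1, 1, 1]]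

/-- The matrix of the induced map on the code modulo the all-one word. -/
def codeMatrix (M : Matrix (Fin 2) (Fin 2) (ZMod 7)) : Matrix (Fin 3) (Fin 3) (ZMod 2) :=
  Matrix.of fun i j => wordSeven j (invActSeven M (![1, 2, 3] i)) + wordSeven j (invActSeven M 0)

theorem codeMatrix_mul_gen :
    ∀ a b c d : ZMod 7, a * d - b * c = 1 →
      codeMatrix (!![a, b; c, d] * !![1, 1; 0, 1]) = codeMatrix !![a, b; c, d] * codeMatrix !![1, 1; 0, 1] ∧
      codeMatrix (!![a, b; c, d] * !![1, 0; 1, 1]) = codeMatrix !![a, b; c, d] * codeMatrix !![1, 0; 1, 1] := by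
  decide +kernel

theorem codeMatrix_one : codeMatrix 1 = 1 := by decide +kernel

theorem codeMatrix_det :
    ∀ a b c d : ZMod 7, a * d - b * c = 1 → (codeMatrix !![a, b; c, d]).det = 1 := by
  decide +kernel

theorem codeMatrix_ne_one : codeMatrix !![1, 1; 0, 1] ≠ 1 := by decide +kernel

theorem codeMatrix_scalar : ∀ s : ZMod 7, s ^ 2 = 1 → codeMatrix !![s, 0; 0, s] = 1 := by decide +kernel

theorem card_sl_three_two : Nat.card (Matrix.SpecialLinearGroup (Fin 3) (ZMod 2)) = 168 := by
  rw [Nat.card_eq_fintype_card]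
  decide +kernel

theorem eq_eta (g : Matrix.SpecialLinearGroup (Fin 2) (ZMod 7)) :
    (g : Matrix (Fin 2) (Fin 2) (ZMod 7)) = !![g 0 0, g 0 1; g 1 0, g 1 1] :=
  Matrix.eta_fin_two _

/-- The homomorphism `SL₂(7) → SL₃(2)`. -/
def codeHom : Matrix.SpecialLinearGroup (Fin 2) (ZMod 7) →* Matrix.SpecialLinearGroup (Fin 3) (ZMod 2) :=
  MonoidHom.mk'
    (fun g => ⟨codeMatrix g.1, by
      rw [eq_eta g]
      exact codeMatrix_det _ _ _ _ (by have := g.det_coe; rwa [Matrix.det_fin_two] at this)⟩)
    (by
      have : Fact (Nat.Prime 7) := ⟨by norm_num⟩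
      intro g h
      apply Subtype.ext
      show codeMatrix (g.1 * h.1) = codeMatrix g.1 * codeMatrix h.1
      let S : Submonoid (Matrix.SpecialLinearGroup (Fin 2) (ZMod 7)) :=
        { carrier := {h | ∀ g : Matrix.SpecialLinearGroup (Fin 2) (ZMod 7),
            codeMatrix (g.1 * h.1) = codeMatrix g.1 * codeMatrix h.1}
          one_mem' := fun g => by
            show codeMatrix (g.1 * 1) = codeMatrix g.1 * codeMatrix 1
            rw [mul_one, codeMatrix_one, mul_one]
          mul_mem' := fun {a b} ha hb g => by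
            show codeMatrix (g.1 * (a.1 * b.1)) = codeMatrix g.1 * codeMatrix (a.1 * b.1)
            have h1 : codeMatrix (g.1 * a.1 * b.1) = codeMatrix (g.1 * a.1) * codeMatrix b.1 := hb (g * a)
            rw [← mul_assoc, h1, ha g, hb a, mul_assoc] }
      have hu : CfsgLib.SL2.u 1 ∈ S := fun g => by
        rw [SL2.coe_u, eq_eta g]
        exact (codeMatrix_mul_gen _ _ _ _
          (by have := g.det_coe; rwa [Matrix.det_fin_two] at this)).1
      have hl : CfsgLib.SL2.l 1 ∈ S := fun g => by
        rw [SL2.coe_l, eq_eta g]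
        exact (codeMatrix_mul_gen _ _ _ _
          (by have := g.det_coe; rwa [Matrix.det_fin_two] at this)).2
      have hpow : ∀ t : ZMod 7, CfsgLib.SL2.u t ∈ S ∧ CfsgLib.SL2.l t ∈ S := by
        intro t
        have h1 : CfsgLib.SL2.u t = CfsgLib.SL2.u 1 ^ t.val := by
          rw [SL2.u_pow, mul_one, ZMod.natCast_zmod_val]
        have h2 : ∀ n : ℕ, CfsgLib.SL2.l ((n : ℕ) : ZMod 7) = CfsgLib.SL2.l 1 ^ n := by
          intro n
          induction n with
          | zero => simp
          | succ n ih => rw [Nat.cast_succ, SL2.l_add, ih, pow_succ]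
        refine ⟨h1 ▸ pow_mem hu _, ?_⟩
        rw [← ZMod.natCast_zmod_val t, h2]
        exact pow_mem hl _
      have hinv : ∀ {a : Matrix.SpecialLinearGroup (Fin 2) (ZMod 7)}, a ∈ S → a⁻¹ ∈ S := by
        intro a ha
        rw [inv_eq_of_mul_eq_one_right (b := a ^ (orderOf a - 1))
          (by rw [← pow_succ', Nat.sub_add_cancel (orderOf_pos a), pow_orderOf_eq_one])]
        exact pow_mem ha _
      let S' : Subgroup (Matrix.SpecialLinearGroup (Fin 2) (ZMod 7)) := { S with inv_mem' := hinv }
      have htop : S' = ⊤ := by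
        refine top_le_iff.mp ?_
        rw [← SL2.U_sup_L]
        refine sup_le (fun x hx => ?_) (fun x hx => ?_)
        · obtain ⟨t, rfl⟩ := SL2.mem_U.mp hx
          exact (hpow t).1
        · obtain ⟨t, rfl⟩ := SL2.mem_L.mp hx
          exact (hpow t).2
      exact (htop ▸ Subgroup.mem_top h : h ∈ S') g)

variable {F K : Type*} [Field F] [Fintype F] [Field K] [Fintype K]

theorem psl_two_seven_equiv_psl_three_two (hF : Fintype.card F = 7) (hK : Fintype.card K = 2) :
    Nonempty (ProjectiveSpecialLinearGroup (Fin 2) F ≃* ProjectiveSpecialLinearGroup (Fin 3) K) := by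
  have : Fact (Nat.Prime 7) := ⟨by norm_num⟩
  have : CharP F 7 := charP_of_card (k := 1) one_ne_zero (by rw [hF, pow_one])
  have : CharP K 2 := charP_of_card (k := 1) one_ne_zero (by rw [hK, pow_one])
  let eF : F ≃+* ZMod 7 := (RingEquiv.ofBijective (ZMod.castHom (dvd_refl 7) F)
    ((RingHom.injective _).bijective_of_nat_card_le
      (by rw [Nat.card_eq_fintype_card, hF, Nat.card_zmod]))).symm
  let eK : ZMod 2 ≃+* K := RingEquiv.ofBijective (ZMod.castHom (dvd_refl 2) K)
    ((RingHom.injective _).bijective_of_nat_card_le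
      (by rw [Nat.card_eq_fintype_card, hK, Nat.card_zmod]))
  let φ : Matrix.SpecialLinearGroup (Fin 2) F →* Matrix.SpecialLinearGroup (Fin 3) K :=
    (Matrix.SpecialLinearGroup.map eK.toRingHom).comp (codeHom.comp (Matrix.SpecialLinearGroup.map eF.toRingHom))
  have hcenter3 : Subgroup.center (Matrix.SpecialLinearGroup (Fin 3) K) = ⊥ := by
    rw [Subgroup.eq_bot_iff_forall]
    intro x hx
    obtain ⟨r, hr, hrx⟩ := Matrix.SpecialLinearGroup.mem_center_iff.mp hx
    have h2 : ∀ r : ZMod 2, r ^ 3 = 1 → r = 1 := by decide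
    have h1 : r = 1 := by
      apply eK.symm.injective
      rw [map_one]
      refine h2 _ ?_
      rw [← map_pow, show r ^ 3 = 1 by simpa using hr, map_one]
    apply Subtype.ext
    rw [← hrx, h1]
    simp
  have hker : Subgroup.center (Matrix.SpecialLinearGroup (Fin 2) F) ≤ φ.ker := by
    intro x hx
    rw [MonoidHom.mem_ker]
    obtain ⟨r, hr, hrx⟩ := Matrix.SpecialLinearGroup.mem_center_iff.mp hx
    have hx' : codeHom (Matrix.SpecialLinearGroup.map eF.toRingHom x) = 1 := by
      apply Subtype.ext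
      show codeMatrix (eF.toRingHom.mapMatrix x.1) = 1
      rw [← hrx]
      have : eF.toRingHom.mapMatrix (scalar (Fin 2) r) = !![eF r, 0; 0, eF r] := by
        ext i j
        fin_cases i <;> fin_cases j <;> simp
      rw [this]
      exact codeMatrix_scalar _ (by rw [← map_pow, show r ^ 2 = 1 by simpa using hr, map_one])
    show Matrix.SpecialLinearGroup.map eK.toRingHom (codeHom (Matrix.SpecialLinearGroup.map eF.toRingHom x)) = 1
    rw [hx', map_one]
  let ψ : ProjectiveSpecialLinearGroup (Fin 2) F →* Matrix.SpecialLinearGroup (Fin 3) K :=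
    QuotientGroup.lift _ φ hker
  have hinj : Function.Injective ψ := by
    rw [← MonoidHom.ker_eq_bot_iff]
    have hs : IsSimpleGroup (ProjectiveSpecialLinearGroup (Fin 2) F) :=
      Matrix.ProjectiveSpecialLinearGroup.rank_two_simple (by rw [Nat.card_eq_fintype_card, hF]; norm_num)
    refine (inferInstance : ψ.ker.Normal).eq_bot_or_eq_top.resolve_right fun htop => ?_
    have hu : ψ (QuotientGroup.mk (SL2.u 1)) = 1 :=
      MonoidHom.mem_ker.mp (by rw [htop]; exact Subgroup.mem_top _)
    change φ (SL2.u 1) = 1 at hu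
    refine codeMatrix_ne_one ?_
    have h1 : codeHom (Matrix.SpecialLinearGroup.map eF.toRingHom (SL2.u (1 : F))) = 1 := by
      apply Subtype.ext
      have := congrArg Subtype.val hu
      refine Matrix.map_injective (f := ⇑eK) eK.injective ?_
      exact this.trans (by simp)
    have h2 := congrArg Subtype.val h1
    change codeMatrix (eF.toRingHom.mapMatrix (SL2.u (1 : F)).1) = 1 at h2
    rwa [show eF.toRingHom.mapMatrix (SL2.u (1 : F)).1 = !![1, 1; 0, 1] by
      rw [SL2.coe_u]; ext i j; fin_cases i <;> fin_cases j <;> simp] at h2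
  have hcard : Nat.card (Matrix.SpecialLinearGroup (Fin 3) K) = 168 := by
    rw [← card_sl_three_two]
    refine (Nat.card_eq_of_bijective (Matrix.SpecialLinearGroup.map eK.toRingHom) ⟨?_, ?_⟩).symm
    · intro a b h
      exact Subtype.ext (Matrix.map_injective (f := ⇑eK) eK.injective (congrArg Subtype.val h))
    · intro b
      refine ⟨Matrix.SpecialLinearGroup.map eK.symm.toRingHom b, Subtype.ext ?_⟩
      ext i j
      simp
  have hcard2 : Nat.card (ProjectiveSpecialLinearGroup (Fin 2) F) = 168 := by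
    have := SL2.card_PSL_odd (F := F) (by rw [hF]; decide)
    rw [hF] at this
    omega
  exact ⟨(MulEquiv.ofBijective ψ (hinj.bijective_of_nat_card_le (by rw [hcard, hcard2]))).trans
    (QuotientGroup.quotientBot.symm.trans (QuotientGroup.quotientMulEquivOfEq hcenter3.symm))⟩

end CfsgLib.SmallIso
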